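import Cfsg.Agent.Lib.FGS.EvenCyc
import Cfsg.Agent.Lib.FGS.ClassSize
import Cfsg.Agent.Lib.FGS.Classes
import Cfsg.Agent.Lib.FGS.FrobCount
import Cfsg.Agent.Lib.Perm.Zass2

/-!
# Groups with the order and the element orders of `PSL(2, q)`, `q` odd
-/

set_option autoImplicit false

namespace Cfsg.Lib.Spec

open Subgroup Cfsg.Lib.BG Cfsg.Lib.Transfer Cfsg.Lib.GW Cfsg.Lib.Inv Cfsg.Lib.FGS Cfsg.Lib.Small
open scoped MatrixGroups

variable {G : Type*} [Group G] [Finite G] {g g' t w x y : G} {n e : ℕ} {H K : Subgroup G}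

/-- The elements conjugate into `T`. -/
def cset (T : Set G) : Set G := {z | ∃ g, g * z * g⁻¹ ∈ T}

theorem ncard_cset (N : Subgroup G) {T : Set G} (hN : ∀ n ∈ N, ∀ y ∈ T, n * y * n⁻¹ ∈ T)
    (hTI : ∀ g, ∀ y ∈ T, g * y * g⁻¹ ∈ T → g ∈ N) : (cset T).ncard = N.index * T.ncard := by
  rw [Subgroup.index, ← Nat.card_coe_set_eq T, ← Nat.card_prod, ← Nat.card_coe_set_eq]
  symm
  refine Nat.card_congr (Equiv.ofBijective (fun p => ⟨p.1.out * p.2.1 * p.1.out⁻¹,
    p.1.out⁻¹, by simp [mul_assoc]⟩) ⟨?_, ?_⟩)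
  · rintro ⟨c, a, ha⟩ ⟨d, b, hb⟩ h
    have h3 : c.out * a * c.out⁻¹ = d.out * b * d.out⁻¹ := congrArg Subtype.val h
    have h4 : c = d := by
      rw [← d.out_eq, ← c.out_eq, eq_comm, Quotient.eq, QuotientGroup.leftRel_apply]
      refine hTI _ a ha ?_
      have : (d.out)⁻¹ * c.out * a * ((d.out)⁻¹ * c.out)⁻¹ = b := by
        calc _ = (d.out)⁻¹ * (c.out * a * c.out⁻¹) * d.out := by group
          _ = _ := by rw [h3]; group
      rwa [this]
    subst h4
    obtain rfl : a = b := mul_left_cancel (mul_right_cancel h3)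
    rfl
  · rintro ⟨g, x, hx⟩
    obtain ⟨n, hn⟩ := QuotientGroup.mk_out_eq_mul N x⁻¹
    refine ⟨(QuotientGroup.mk x⁻¹, ⟨_, hN _ (N.inv_mem n.2) _ hx⟩), Subtype.ext ?_⟩
    simp only [hn]
    group

theorem mul_mem_of_two (h : H ≤ K) (hc : Nat.card K = 2 * Nat.card H) (hx : x ∈ K) (hy : y ∈ K) (hx' : x ∉ H)
    (hy' : y ∉ H) : x * y ∈ H := by
  have h1 : (H.subgroupOf K).index = 2 := by
    have := BG.card_mul_relIndex h
    rw [hc, mul_comm 2] at this
    exact Nat.eq_of_mul_eq_mul_left Nat.card_pos this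
  exact (mul_mem_iff_of_index_two h1 (a := ⟨x, hx⟩) (b := ⟨y, hy⟩)).2 (iff_of_false hx' hy')

theorem card_le_two_mul_diff (h : ¬ H ≤ K) : Nat.card H ≤ 2 * ((H : Set G) \ K).ncard := by
  have h1 : ((H : Set G) \ K) = (H : Set G) \ (H ⊓ K : Subgroup G) := by ext; simp
  obtain ⟨k, hk⟩ := card_dvd (inf_le_left : H ⊓ K ≤ H)
  have h2 : k ≠ 1 := fun e => h (inf_eq_left.1 (eq_of_le_of_card_le inf_le_left (by rw [hk, e, mul_one])))
  have h3 : k ≠ 0 := fun e => (Nat.card_pos (α := H)).ne' (by rw [hk, e, mul_zero])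
  rw [h1, Set.ncard_sdiff (by exact inf_le_left (a := H) (b := K)), ← Nat.card_coe_set_eq, ← Nat.card_coe_set_eq]
  change Nat.card H ≤ 2 * (Nat.card H - Nat.card ↥(H ⊓ K))
  have : Nat.card ↥(H ⊓ K) * 2 ≤ Nat.card ↥(H ⊓ K) * k := Nat.mul_le_mul_left _ (by omega)
  omega

theorem ncard_diff_one (H : Subgroup G) : ((H : Set G) \ {1}).ncard = Nat.card H - 1 := by
  rw [Set.ncard_sdiff_singleton_of_mem H.one_mem, ← Nat.card_coe_set_eq]; rfl

/-- The arithmetic shape of `PSL(2, q)`: `e` is the even one of `(q ± 1) / 2`. -/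
structure EH (G : Type*) [Group G] (n e : ℕ) : Prop where
  card : Nat.card G = n * (2 * e)
  even : 2 ∣ e
  cong : 2 * e ∣ n * (e - 1) + 1
  le : e ≤ n
  ord : ∀ g : G, orderOf g ∣ e ∨ (orderOf g).Coprime e

/-- The nonidentity elements of order dividing `e`. -/
def XE (G : Type*) [Group G] (e : ℕ) : Set G := {x | x ≠ 1 ∧ orderOf x ∣ e}

namespace EH
variable (h : EH G n e)
include h

theorem pos : 0 < e := Nat.pos_of_ne_zero fun e0 => (Nat.card_pos (α := G)).ne' (by rw [h.card, e0]; simp)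

theorem two_le : 2 ≤ e := Nat.le_of_dvd h.pos h.even

omit [Finite G] in
theorem cop : n.Coprime (2 * e) := Nat.coprime_of_dvd fun k hk h1 h2 =>
  hk.one_lt.ne' (Nat.dvd_one.1 ((Nat.dvd_add_right (h1.mul_right _)).1 (h2.trans h.cong)))

omit [Finite G] in
theorem mixed (hc : Commute x y) (hx : orderOf x ∣ e) (hy : (orderOf y).Coprime e) (h1 : x ≠ 1) : y = 1 := by
  have h2 := h.ord (x * y)
  rw [hc.orderOf_mul_eq_mul_orderOf_of_coprime (hy.symm.coprime_dvd_left hx)] at h2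
  rcases h2 with h2 | h2
  · exact orderOf_eq_one_iff.1 (hy.eq_one_of_dvd ((dvd_mul_left _ _).trans h2))
  · exact (h1 (orderOf_eq_one_iff.1 (h2.coprime_mul_right.eq_one_of_dvd hx))).elim

theorem cA (hx : x ∈ XE G e) : Nat.card 𝐂[x] ∣ 2 * e := by
  refine Nat.Coprime.dvd_of_dvd_mul_left (Nat.coprime_of_dvd fun k hk h1 h2 => ?_) (h.card ▸ card_subgroup_dvd_card _)
  have := Fact.mk hk
  obtain ⟨⟨y, hy⟩, h3⟩ := exists_prime_orderOf_dvd_card' k h1
  rw [orderOf_mk] at h3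
  have := h.mixed (mem_cent1.1 hy).symm hx.2 (h3 ▸ (h.cop.coprime_dvd_left h2).coprime_mul_left_right) hx.1
  simp [this, hk.one_lt.ne] at h3

theorem cB (h1 : y ≠ 1) (hy : (orderOf y).Coprime e) : Nat.card 𝐂[y] ∣ n := by
  refine Nat.Coprime.dvd_of_dvd_mul_right (Nat.coprime_of_dvd fun k hk h3 h2 => ?_) (h.card ▸ card_subgroup_dvd_card _)
  have := Fact.mk hk
  obtain ⟨⟨x, hx⟩, h3⟩ := exists_prime_orderOf_dvd_card' k h3
  rw [orderOf_mk] at h3
  refine h1 (h.mixed (mem_cent1.1 hx) (h3 ▸ ?_) hy fun e => by simp [e, hk.one_lt.ne] at h3)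
  rcases hk.dvd_mul.1 h2 with h2 | h2
  exacts [h2.trans h.even, h2]

theorem iA (hx : x ∈ XE G e) : n ∣ (𝐂[x]).index :=
  (h.cop.coprime_dvd_right (h.cA hx)).dvd_of_dvd_mul_right (by rw [index_mul_card, h.card]; exact dvd_mul_right _ _)

theorem ncard_XE : (XE G e).ncard = n * (e - 1) := by
  have k1 : ∀ (S : Set G) (d : ℕ), (∀ x ∈ S, ∀ g, g * x * g⁻¹ ∈ S) → (∀ x ∈ S, d ∣ (𝐂[x]).index) → d ∣ S.ncard :=
    fun S d h1 h2 => dvd_ncard_of_classes (fun x => {y | IsConj x y}) (fun x _ => IsConj.refl x)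
      (fun x hx y hy => by obtain ⟨g, rfl⟩ := isConj_iff.1 hy; exact h1 x hx g)
      (fun x _ y hy => Set.ext fun z => ⟨fun e => IsConj.trans hy e, fun e => IsConj.trans (IsConj.symm hy) e⟩)
      fun x hx => by rw [ncard_isConj]; exact h2 x hx
  obtain ⟨k, hk⟩ := k1 (XE G e) n (fun x hx g => ⟨by simpa using hx.1, by rw [ordc rfl g]; exact hx.2⟩) fun x hx => h.iA hx
  obtain ⟨l, hl⟩ := k1 {y | ¬ orderOf y ∣ e} (2 * e) (fun x hx g => by simpa [ordc rfl g] using hx) fun y hy =>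
    (h.cop.coprime_dvd_left (h.cB (fun e => by simp [e] at hy) ((h.ord y).resolve_left hy))).symm.dvd_of_dvd_mul_right
      (by rw [index_mul_card, h.card]; exact dvd_mul_left _ _)
  have h1 := Set.ncard_add_ncard_compl {y : G | ¬ orderOf y ∣ e}
  have h2 : {y : G | ¬ orderOf y ∣ e}ᶜ = insert 1 (XE G e) := by
    ext y; by_cases h : y = 1 <;> simp [XE, h]
  rw [h2, Set.ncard_insert_of_notMem (by simp [XE]), hk, hl, h.card] at h1
  have h3 : n * k ≡ n * (e - 1) [MOD 2 * e] := Nat.ModEq.add_right_cancel' 1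
    ((Nat.modEq_zero_iff_dvd.2 ((Nat.dvd_add_right (dvd_mul_right _ l)).1 (h1 ▸ dvd_mul_left _ _))).trans
      (Nat.modEq_zero_iff_dvd.2 h.cong).symm)
  have := h.pos
  rw [hk, (h3.cancel_left_of_coprime h.cop.symm).eq_of_lt_of_lt (lt_of_mul_lt_mul_left (a := n) (by omega) n.zero_le)
    (by omega)]

theorem memX (h1 : x ≠ 1) (hx : orderOf x ∣ 2 * e) : x ∈ XE G e :=
  ⟨h1, (h.ord x).resolve_right fun h2 => h1 (orderOf_eq_one_iff.1
    (((h2.coprime_dvd_right h.even).mul_right h2).eq_one_of_dvd hx))⟩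

theorem ordt (hg : orderOf g = e) : orderOf (g ^ (e / 2)) = 2 := by
  obtain ⟨k, rfl⟩ := h.even
  have := h.pos
  rw [Nat.mul_div_cancel_left _ two_pos, orderOf_pow_of_dvd (by omega) (hg ▸ dvd_mul_left _ _), hg,
    Nat.mul_div_cancel _ (by omega)]

theorem bound (ht : orderOf t = 2) : (𝐂[t]).index * {y | t ∈ zpowers y}.ncard ≤ n * (e - 1) := by
  have k : ∀ c y : G, t ∈ zpowers y → c * t * c⁻¹ ∈ zpowers (c * y * c⁻¹) := by
    rintro c y ⟨i, rfl⟩
    exact ⟨i, conj_zpow⟩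
  rw [← h.ncard_XE, ← ncard_cset _ (fun c hc y hy => ?_) fun c y hy hc => ?_]
  · refine Set.ncard_le_ncard ?_
    rintro z ⟨c, hc⟩
    have h2 : 2 ∣ orderOf z := ordc (rfl : orderOf z = _) c ▸ ht ▸ orderOf_dvd_of_mem_zpowers hc
    exact ⟨fun e => by simp [e] at h2, (h.ord z).resolve_right fun h3 =>
      absurd ((h3.coprime_dvd_left h2).eq_one_of_dvd h.even) (by norm_num)⟩
  · have := k c y hy
    rwa [conj_of_cent hc] at this
  · exact cent_of_conj (eq_of_isCyclic_of_orderOf_two inferInstance (k c y hy) hc (ordc ht c) ht)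

omit h in
theorem memT (ht : orderOf t = 2) (hg : t ∈ zpowers g) (hy : y ∈ zpowers g) (h1 : y ∉ K) (h2 : y ^ 2 ∈ K) :
    t ∈ zpowers y := by
  obtain ⟨k, hk⟩ := (Nat.even_or_odd (orderOf y)).resolve_right fun e => h1 (mem_of_odd_of_sq e h2)
  have h0 := orderOf_pos y
  have h3 : orderOf (y ^ k) = 2 := by
    rw [orderOf_pow_of_dvd (by omega) (hk ▸ two_mul k ▸ dvd_mul_left _ _), hk, ← two_mul, Nat.mul_div_cancel _ (by omega)]
  exact eq_of_isCyclic_of_orderOf_two inferInstance (pow_mem hy k) hg h3 ht ▸ npow_mem_zpowers y k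

omit h in
theorem le_cent (hx : x ∈ zpowers g) : zpowers g ≤ 𝐂[x] :=
  (abelian_cent inferInstance).trans (cent_le_cent1 hx)

theorem card_eq (hg : orderOf g = e) (h1 : zpowers g ≤ K) (h2 : Nat.card K ∣ 2 * e) (h3 : ¬ K ≤ zpowers g) :
    Nat.card K = 2 * e := by
  obtain ⟨k, hk⟩ := card_dvd h1
  rw [Nat.card_zpowers, hg] at hk
  rw [hk, mul_comm 2] at h2 ⊢
  rcases (Nat.dvd_prime Nat.prime_two).1 (Nat.dvd_of_mul_dvd_mul_left h.pos h2) with rfl | rfl
  · exact (h3 (eq_of_le_of_card_le h1 (by rw [hk, Nat.card_zpowers, hg, mul_one])).ge).elim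
  · rfl

theorem tX (ht : orderOf t = 2) : t ∈ XE G e := ⟨fun e => by simp [e] at ht, ht ▸ h.even⟩

theorem cardK (hg : orderOf g = e) (ht : orderOf t = 2) (h1 : t ∈ zpowers g) : Nat.card 𝐂[t] = 2 * e := by
  refine h.card_eq hg (le_cent h1) (h.cA (h.tX ht)) fun h2 => ?_
  have h3 := (𝐂[t]).index_mul_card
  rw [le_antisymm h2 (le_cent h1), Nat.card_zpowers, hg, h.card, ← mul_assoc] at h3
  have h4 := h.bound ht
  rw [le_antisymm h2 (le_cent h1), Nat.eq_of_mul_eq_mul_right h.pos h3] at h4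
  have h5 : ¬ zpowers g ≤ zpowers (g ^ 2) := fun h5 => by
    have := Nat.le_of_dvd (orderOf_pos _) (orderOf_dvd_of_mem_zpowers (h5 (mem_zpowers g)))
    rw [orderOf_pow_of_dvd two_ne_zero (hg ▸ h.even), hg] at this
    have := h.pos
    omega
  have h6 := card_le_two_mul_diff h5
  have h7 : ((zpowers g : Set G) \ zpowers (g ^ 2)).ncard ≤ {y | t ∈ zpowers y}.ncard :=
    Set.ncard_le_ncard fun y hy => memT ht h1 hy.1 hy.2 (by
      obtain ⟨i, rfl⟩ := hy.1
      exact ⟨i, by simp only [← zpow_natCast, ← zpow_mul, mul_comm]⟩)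
  rw [Nat.card_zpowers, hg] at h6
  have := h.pos
  have h8 := lt_of_lt_of_le this h.le
  have := Nat.le_of_mul_le_mul_left (mul_assoc n _ _ ▸ h4) h8
  omega

theorem indexK (hg : orderOf g = e) (ht : orderOf t = 2) (h1 : t ∈ zpowers g) : (𝐂[t]).index = n := by
  have h3 := (𝐂[t]).index_mul_card
  rw [h.cardK hg ht h1, h.card] at h3
  exact Nat.eq_of_mul_eq_mul_right (by have := h.pos; omega) h3

theorem mul_mem (hg : orderOf g = e) (ht : orderOf t = 2) (h1 : t ∈ zpowers g) (hx : x ∈ 𝐂[t]) (hy : y ∈ 𝐂[t])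
    (hx' : x ∉ zpowers g) (hy' : y ∉ zpowers g) : x * y ∈ zpowers g :=
  mul_mem_of_two (le_cent h1) (by rw [h.cardK hg ht h1, Nat.card_zpowers, hg]) hx hy hx' hy'

theorem sq_mem (hg : orderOf g = e) (ht : orderOf t = 2) (h1 : t ∈ zpowers g) (hx : x ∈ 𝐂[t]) : x ^ 2 ∈ zpowers g := by
  by_cases h2 : x ∈ zpowers g
  exacts [pow_mem h2 2, pow_two x ▸ h.mul_mem hg ht h1 hx hx h2 h2]

theorem memXK (hg : orderOf g = e) (ht : orderOf t = 2) (h1 : t ∈ zpowers g) (hx : x ∈ 𝐂[t]) (h2 : x ≠ 1) :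
    x ∈ XE G e := h.memX h2 (h.cardK hg ht h1 ▸ orderOf_dvd_natCard _ hx)

/-- The centralizer of the involution is not abelian unless `e = 2`. -/
theorem not_ab (hg : orderOf g = e) (ht : orderOf t = 2) (h1 : t ∈ zpowers g) (hK : IsMulCommutative 𝐂[t]) : e = 2 := by
  have k1 : ∀ y ∈ 𝐂[t], y ≠ 1 → 𝐂[y] = 𝐂[t] := fun y hy h2 =>
    (eq_of_le_of_card_le ((abelian_cent hK).trans (cent_le_cent1 hy)) (by
      rw [h.cardK hg ht h1]; exact Nat.le_of_dvd (by have := h.pos; omega) (h.cA (h.memXK hg ht h1 hy h2)))).symm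
  have k2 : cset ((𝐂[t] : Set G) \ {1}) = XE G e := by
    refine Set.Subset.antisymm ?_ fun x hx => ?_
    · rintro z ⟨c, hc⟩
      have := h.memXK hg ht h1 hc.1 hc.2
      exact ⟨by simpa using this.1, ordc (rfl : orderOf z = _) c ▸ this.2⟩
    obtain ⟨r, hr, h2⟩ := Nat.exists_prime_and_dvd (orderOf_eq_one_iff.not.2 hx.1)
    have := Fact.mk hr
    have h3 := orderOf_pow_orderOf_div (orderOf_pos x).ne' h2
    obtain ⟨c, hc⟩ := exists_conj_mem_of_not_dvd_index (p := r) (H := 𝐂[t]) (k := 1) (y := x ^ (orderOf x / r))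
      (fun e => hr.one_lt.ne' ((h.cop.coprime_dvd_left (h.indexK hg ht h1 ▸ e)).eq_one_of_dvd
        ((h2.trans hx.2).mul_left _))) (by rw [pow_one, ← orderOf_dvd_iff_pow_eq_one, h3])
    refine ⟨c, ?_, by simpa using hx.1⟩
    rw [← k1 _ hc fun e => by simp [conj_eq_one_iff.1 e, hr.one_lt.ne] at h3, ← conj_pow]
    exact cent1_le_cent1_pow _ _ (self_mem_cent1 _)
  have k3 := ncard_cset 𝐍(𝐂[t]) (T := (𝐂[t] : Set G) \ {1})
    (fun c hc y hy => ⟨conj_mem_of_norm hc hy.1, by simpa using hy.2⟩) fun c y hy hc =>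
      norm_of_conj_eq (by rw [← k1 y hy.1 hy.2, conj_cent1, k1 _ hc.1 hc.2, k1 y hy.1 hy.2])
  obtain ⟨m, hm⟩ := index_dvd_of_le (le_norm 𝐂[t])
  rw [k2, h.ncard_XE, ncard_diff_one, h.cardK hg ht h1, ← h.indexK hg ht h1, hm, mul_assoc] at k3
  have k4 := Nat.eq_of_mul_eq_mul_left (Nat.pos_of_ne_zero index_ne_zero_of_finite) k3
  have := h.two_le
  have k5 : e - 1 ∣ 2 * (e - 1) + 1 := ⟨m, by rw [mul_comm (e - 1), k4]; omega⟩
  have := Nat.dvd_one.1 ((Nat.dvd_add_right (dvd_mul_left _ _)).1 k5)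
  omega

/-- The cyclic subgroups of order `e` intersect trivially. -/
theorem ti (hg : orderOf g = e) (hg' : orderOf g' = e) (h1 : x ≠ 1) (hx : x ∈ zpowers g) (hx' : x ∈ zpowers g') :
    zpowers g = zpowers g' := by
  by_contra hne
  have hc : Nat.card (zpowers g) = Nat.card (zpowers g') := by rw [Nat.card_zpowers, Nat.card_zpowers, hg, hg']
  have n1 : ¬ zpowers g ≤ zpowers g' := fun e => hne (eq_of_le_of_card_le e hc.ge)
  have n2 : ¬ zpowers g' ≤ zpowers g := fun e => hne (eq_of_le_of_card_le e hc.le).symm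
  have hX : x ∈ XE G e := ⟨h1, hg ▸ orderOf_dvd_of_mem_zpowers hx⟩
  have k : ∀ {g g' t : G}, orderOf g = e → orderOf t = 2 → t ∈ zpowers g → x ∈ zpowers g → x ∈ zpowers g' →
      ¬ zpowers g' ≤ zpowers g → 𝐂[x] = 𝐂[t] := fun {g g' t} hg ht h2 hx hx' n2 => by
    have h3 := h.card_eq hg (le_cent hx) (h.cA hX) fun e => n2 ((le_cent hx').trans e)
    refine eq_of_le_of_card_le (fun c hc => cent_of_conj ?_) (by rw [h3, h.cardK hg ht h2])
    refine eq_of_isCyclic_of_orderOf_two inferInstance ?_ h2 (ordc ht c) ht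
    by_cases h4 : c ∈ zpowers g
    · exact Subgroup.mul_mem _ (Subgroup.mul_mem _ h4 h2) (inv_mem h4)
    · exact mul_mem_of_two (le_cent hx) (by rw [h3, Nat.card_zpowers, hg]) (Subgroup.mul_mem _ hc (le_cent hx h2))
        (inv_mem hc) (by rwa [mul_mem_cancel_right h2]) (by rwa [inv_mem_iff])
  have ht := h.ordt hg
  have ht' := h.ordt hg'
  have m := npow_mem_zpowers g (e / 2)
  have m' := npow_mem_zpowers g' (e / 2)
  have e1 := k hg ht m hx hx' n2
  have e2 := k hg' ht' m' hx' hx n1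
  generalize g ^ (e / 2) = t at *
  generalize g' ^ (e / 2) = t' at *
  by_cases h2 : t' ∈ zpowers g
  · obtain rfl := eq_of_isCyclic_of_orderOf_two inferInstance m h2 ht ht'
    have h3 := h.bound ht
    have h4 := card_le_two_mul_diff n1
    have h5 := card_le_two_mul_diff n2
    have h6 : ((zpowers g : Set G) \ zpowers g' ∪ (zpowers g' : Set G) \ zpowers g).ncard ≤ {y | t ∈ zpowers y}.ncard := by
      refine Set.ncard_le_ncard ?_
      rintro y (hy | hy)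
      exacts [memT ht m hy.1 hy.2 (h.sq_mem hg' ht m' (le_cent m hy.1)),
        memT ht m' hy.1 hy.2 (h.sq_mem hg ht m (le_cent m' hy.1))]
    rw [Set.ncard_union_eq disjoint_sdiff_sdiff] at h6
    rw [Nat.card_zpowers] at h4 h5
    rw [h.indexK hg ht m] at h3
    have := h.pos
    have := Nat.le_of_mul_le_mul_left h3 (lt_of_lt_of_le this h.le)
    omega
  have h3 : zpowers g ⊔ zpowers t' = 𝐂[t] := by
    have h4 : t' ∈ 𝐂[t] := e1 ▸ e2 ▸ self_mem_cent1 t'
    refine le_antisymm (sup_le (le_cent m) (zpowers_le.2 h4)) fun c hc => ?_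
    by_cases h5 : c ∈ zpowers g
    · exact mem_sup_left h5
    · simpa using mul_mem_sup (h.mul_mem hg ht m hc h4 h5 h2) (inv_mem (mem_zpowers t'))
  have h4 := h.not_ab hg ht m (h3 ▸ abelian_sup inferInstance inferInstance (by
    rw [cent_zpowers, ← e2, e1]; exact le_cent m))
  have h5 : ∀ {g : G}, orderOf g = e → x ∈ zpowers g → zpowers x = zpowers g := fun hg hx =>
    zpowers_eq_of_prime (by rw [Nat.card_zpowers, hg, h4]; norm_num) hx h1
  exact hne ((h5 hg hx).symm.trans (h5 hg' hx'))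

theorem cover (hg : orderOf g = e) (hx : x ∈ XE G e) : ∃ c, c * x * c⁻¹ ∈ zpowers g := by
  have ht := h.ordt hg
  have m := npow_mem_zpowers g (e / 2)
  generalize g ^ (e / 2) = t at *
  have k : ∀ c y : G, y ∈ zpowers g → c * y * c⁻¹ ∈ zpowers (c * g * c⁻¹) := by
    rintro c y ⟨i, rfl⟩
    exact ⟨i, conj_zpow⟩
  have k3 := ncard_cset 𝐂[t] (T := (zpowers g : Set G) \ {1}) (fun c hc y hy => ⟨?_, by simpa using hy.2⟩)
    fun c y hy hc => cent_of_conj (eq_of_isCyclic_of_orderOf_two inferInstance ?_ m (ordc ht c) ht)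
  · rw [ncard_diff_one, h.indexK hg ht m, Nat.card_zpowers, hg, ← h.ncard_XE] at k3
    have : cset ((zpowers g : Set G) \ {1}) ⊆ XE G e := by
      rintro z ⟨c, hc⟩
      exact ⟨by simpa using hc.2, ordc (rfl : orderOf z = _) c ▸ hg ▸ orderOf_dvd_of_mem_zpowers hc.1⟩
    obtain ⟨c, hc⟩ := (Set.eq_of_subset_of_ncard_le this k3.ge).ge hx
    exact ⟨c, hc.1⟩
  · by_cases h4 : c ∈ zpowers g
    · exact Subgroup.mul_mem _ (Subgroup.mul_mem _ h4 hy.1) (inv_mem h4)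
    · exact h.mul_mem hg ht m (Subgroup.mul_mem _ hc (le_cent m hy.1)) (inv_mem hc)
        (by rwa [mul_mem_cancel_right hy.1]) (by rwa [inv_mem_iff])
  · exact h.ti hg (ordc hg c) hc.2 hc.1 (k c y hy.1) ▸ k c t m

theorem conj (hg : orderOf g = e) (ht : orderOf t = 2) (m : t ∈ zpowers g) (hx : orderOf x = 2) : ∃ c, c * x * c⁻¹ = t :=
  (h.cover hg (h.tX hx)).imp fun c hc => eq_of_isCyclic_of_orderOf_two inferInstance hc m (ordc hx c) ht

theorem refl (hg : orderOf g = e) (ht : orderOf t = 2) (m : t ∈ zpowers g) (hw : w ∈ 𝐂[t]) (h1 : w ∉ zpowers g) :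
    orderOf w = 2 := by
  have h0 : w ≠ 1 := fun e => h1 (e ▸ one_mem _)
  obtain ⟨c, i, hc⟩ := h.cover hg (h.memXK hg ht m hw h0)
  have h2 : w ∈ zpowers (c⁻¹ * g * c⁻¹⁻¹) := ⟨i, by simp only [conj_zpow, hc]; group⟩
  exact orderOf_eq_prime (by_contra fun e => h1 (h.ti hg (ordc hg _) e (h.sq_mem hg ht m hw) (pow_mem h2 2) ▸ h2)) h0

theorem inv (hg : orderOf g = e) (ht : orderOf t = 2) (m : t ∈ zpowers g) (hw : w ∈ 𝐂[t]) (h1 : w ∉ zpowers g)
    (hx : x ∈ zpowers g) : w * x * w⁻¹ = x⁻¹ := by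
  have h2 := pow_orderOf_eq_one (w * x)
  have h3 := pow_orderOf_eq_one w
  rw [h.refl hg ht m (Subgroup.mul_mem _ hw (le_cent m hx)) (by rwa [mul_mem_cancel_right hx]), pow_two] at h2
  rw [h.refl hg ht m hw h1, pow_two] at h3
  rw [inv_eq_of_mul_eq_one_right h3, eq_inv_iff_mul_eq_one, mul_assoc, h2]

theorem exists_refl (hg : orderOf g = e) (ht : orderOf t = 2) (m : t ∈ zpowers g) : ∃ w ∈ 𝐂[t], w ∉ zpowers g := by
  by_contra! h1
  have := Nat.le_of_dvd Nat.card_pos (card_dvd (show 𝐂[t] ≤ zpowers g from h1))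
  rw [h.cardK hg ht m, Nat.card_zpowers, hg] at this
  have := h.pos
  omega

theorem dc (hg : orderOf g = e) : DC G := by
  have ht := h.ordt hg
  have m := npow_mem_zpowers g (e / 2)
  generalize g ^ (e / 2) = t at *
  obtain ⟨w, hw, h1⟩ := h.exists_refl hg ht m
  have h2 := h.refl hg ht m hw h1
  have hV := fourGen_of h2 ht (fun e => h1 (e ▸ m)) (mem_cent1.1 hw)
  obtain ⟨S, hS, h3⟩ := Syl.exists_ge (four_pgroup hV) (hV.four_le_iff.2 ⟨hw, self_mem_cent1 t⟩)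
  refine EC.dc_of (S := S) (A := zpowers g ⊓ S) (Syl.mk' le_top hS.pgroup fun e => ?_) inf_le_right hV.sq (fun e => h1 e.1)
    (fun a ha => h.inv hg ht m hw h1 ha.1) (le_antisymm (sup_le inf_le_right (zpowers_le.2 (h3 hV.left_mem))) fun s hs => ?_)
    (cyclic_of_le inferInstance inf_le_left) (ne_bot_of_mem ⟨m, h3 hV.right_mem⟩ hV.ne_one')
  · rw [relIndex_top_right, ← relIndex_mul_index hS.le, h.indexK hg ht m] at e
    rcases Nat.prime_two.dvd_mul.1 e with e | e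
    exacts [hS.not_dvd' e, absurd ((h.cop.coprime_dvd_left e).eq_one_of_dvd (dvd_mul_right _ _)) (by norm_num)]
  by_cases h5 : s ∈ zpowers g
  · exact mem_sup_left ⟨h5, hs⟩
  · simpa using mul_mem_sup (show s * w ∈ zpowers g ⊓ S from ⟨h.mul_mem hg ht m (hS.le hs) hw h5 h1,
      Subgroup.mul_mem _ hs (h3 hV.left_mem)⟩) (inv_mem (mem_zpowers w))

theorem core (hg : orderOf g = e) : oddCore G = ⊥ := by
  by_contra h0
  obtain ⟨V, hV, hVK⟩ := Core.exists_isMinNormal_le (inferInstance : (oddCore G).Normal) h0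
  have ho := odd_of_le (Core.odd_card_oddCore G) hVK
  obtain ⟨r, hr, hab, h1⟩ := hV.isElementaryAbelian (Coprime.isSolvable_of_not_two_dvd ho.not_two_dvd_nat)
  have := hV.normal
  have := Fact.mk hr
  obtain ⟨v, hv, v1⟩ := exists_ne_one hV.ne_bot
  have k : ∀ v ∈ V, v ≠ 1 → orderOf v = r := fun v hv v1 => orderOf_eq_prime (h1 v hv) v1
  by_cases h2 : r ∣ e
  · have h3 := Nat.le_of_dvd (Nat.pos_of_ne_zero index_ne_zero_of_finite) (h.iA ⟨v1, k v hv v1 ▸ h2⟩)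
    have h4 : {y | IsConj v y}.ncard ≤ ((V : Set G) \ {1}).ncard := Set.ncard_le_ncard fun y hy => by
      obtain ⟨c, rfl⟩ := isConj_iff.1 hy
      exact ⟨‹V.Normal›.conj_mem v hv c, by simpa using v1⟩
    rw [ncard_isConj, ncard_diff_one] at h4
    obtain ⟨a, ha⟩ := (Core.isPGroup_of_isElementaryAbelian (p := r) (N := V) ⟨hab, h1⟩).exists_card_eq
    have h5 := card_subgroup_dvd_card V
    rw [h.card] at h5
    have h6 := Nat.le_of_dvd h.pos ((Nat.coprime_two_right.2 ho).dvd_of_dvd_mul_left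
      (Nat.Coprime.dvd_of_dvd_mul_left (ha ▸ (h.cop.coprime_dvd_right (h2.mul_left _)).symm.pow_left _) h5))
    have := h.le
    have := h.pos
    omega
  have k2 : ∀ s, orderOf s = 2 → ∀ v ∈ V, s * v * s⁻¹ = v⁻¹ := fun s hs =>
    Perm.inv_of_fpf_involution (by rw [← pow_two, ← hs, pow_orderOf_eq_one]) (by simp [normalizer_eq_top])
      fun v hv e => by_contra fun v1 => v1 (h.mixed e (hs ▸ h.even) (k v hv v1 ▸ (hr.coprime_iff_not_dvd.2 h2))
        (h.tX hs).1)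
  have ht := h.ordt hg
  have m := npow_mem_zpowers g (e / 2)
  generalize g ^ (e / 2) = t at *
  obtain ⟨w, hw, h3⟩ := h.exists_refl hg ht m
  have h4 := k2 _ (h.refl hg ht m (Subgroup.mul_mem _ hw (self_mem_cent1 t)) (by rwa [mul_mem_cancel_right m])) v hv
  rw [conj_of_cent (cent_of_inv_inv (k2 _ (h.refl hg ht m hw h3) v hv) (k2 _ ht v hv))] at h4
  exact h2 (k v hv v1 ▸ (orderOf_dvd_of_pow_eq_one (by rw [pow_two, ← eq_inv_iff_mul_eq_one]; exact h4)).trans h.even)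

theorem main (hg : orderOf g = e) : Nonempty (G ≃* alternatingGroup (Fin 7)) ∨
    ∃ (F : Type) (_ : Field F) (_ : Fintype F), Odd (Nat.card F) ∧ Nonempty (G ≃* PSL(2, F)) := by
  refine (cf_cases (h.dc hg) (h.core hg) fun h2 => ?_).imp_right fun ⟨F, i, j, E, hE⟩ => ⟨F, i, j, hE.odd, ?_⟩
  · obtain ⟨a, ha⟩ := h2.exists_card_eq
    have h3 : n ∣ 2 ^ a := ha ▸ h.card ▸ dvd_mul_right _ _
    have := (h.cop.coprime_mul_right_right.pow_right a).eq_one_of_dvd h3
    have := h.le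
    have := h.two_le
    omega
  obtain ⟨τ, f, hm⟩ := hE.model (h.dc hg)
  obtain ⟨s, hs, s', -, hV⟩ := hE.exists_four
  have ht := h.ordt hg
  have m := npow_mem_zpowers g (e / 2)
  generalize g ^ (e / 2) = t at *
  have hN := hE.nml
  have k1 : ∀ x, orderOf x = 2 → x ∈ E := fun x hx => by
    obtain ⟨c, hc⟩ := h.conj hg ht m hx
    obtain ⟨d, hd⟩ := h.conj hg ht m (orderOf_eq_prime (by rw [pow_two, hV.sq]) hV.ne_one)
    simpa [mul_assoc] using hN.conj_mem _ (hc ▸ hd ▸ hN.conj_mem s hs d : c * x * c⁻¹ ∈ E) c⁻¹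
  obtain ⟨w, hw, h3⟩ := h.exists_refl hg ht m
  have k2 : 𝐂[t] ≤ E := fun x hx => by
    by_cases h4 : x ∈ zpowers g
    · exact (mul_mem_cancel_left (k1 w (h.refl hg ht m hw h3))).1
        (k1 _ (h.refl hg ht m (Subgroup.mul_mem _ hw hx) (by rwa [mul_mem_cancel_right h4])))
    · exact k1 x (h.refl hg ht m hx h4)
  obtain rfl : E = ⊤ := top_unique fun x _ => by
    obtain ⟨c, hc, e⟩ := hm.conj (k1 _ (ordc ht x)) (k1 t ht) (ordc ht x) ht
    exact (mul_mem_cancel_left hc).1 (k2 (cent_of_conj (Eq.trans (by group) e)))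
  exact ⟨topEquiv.symm.trans hE.iso.some⟩

end EH

end Cfsg.Lib.Spec
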